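import Cfsg.Agent.H463.EP.Plane

/-!
# S3499, the symplectic groups, class 5 (helper463)

`spFive` : a subfield group is not a point stabiliser of an extremely primitive group with socle `PSp_{2k}(q)`, `k ≥ 2`.
The rational plane is spanned by two columns of the basis `P` on which the form does not vanish.  `spC5` : the row in the
form used by the assembly (helper111).
-/

set_option autoImplicit false
set_option linter.unusedSectionVars false
set_option linter.unusedSimpArgs false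

namespace Cfsg.Agent.H463.EP

open Matrix Subgroup Cfsg.Geo Cfsg.Agent.H284 Cfsg.Agent.H419.EP Cfsg.Agent.H96.C5
open scoped MatrixGroups

/-- the form on the plane -/
def J₂ (F : Type*) [Field F] : Matrix (Fin 2) (Fin 2) F := !![0, 1; -1, 0]

section

variable {F : Type*} [Field F]

theorem J₂_mul : (J₂ F)ᵀ * J₂ F = 1 := by
  ext i j
  fin_cases i <;> fin_cases j <;> simp [J₂, Matrix.mul_apply, Fin.sum_univ_two, Matrix.one_apply]

theorem J₂_mul' : J₂ F * (J₂ F)ᵀ = 1 := by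
  ext i j
  fin_cases i <;> fin_cases j <;> simp [J₂, Matrix.mul_apply, Fin.sum_univ_two, Matrix.one_apply]

theorem J₂_transpose : (J₂ F)ᵀ = -J₂ F := by
  ext i j
  fin_cases i <;> fin_cases j <;> simp [J₂]

theorem J₂_det {A : Matrix (Fin 2) (Fin 2) F} (h : A.det = 1) : Aᵀ * J₂ F * A = J₂ F := by
  rw [Matrix.det_fin_two] at h
  ext i j
  fin_cases i <;> fin_cases j
  · simp [J₂, Matrix.mul_apply, Fin.sum_univ_two]
    ring
  · simp [J₂, Matrix.mul_apply, Fin.sum_univ_two]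
    linear_combination h
  · simp [J₂, Matrix.mul_apply, Fin.sum_univ_two]
    linear_combination -h
  · simp [J₂, Matrix.mul_apply, Fin.sum_univ_two]
    ring

variable {ι : Type} [Fintype ι] [DecidableEq ι] {U : Matrix ι (Fin 2) F} {V : Matrix (Fin 2) ι F} {B : Matrix ι ι F} {c : F}

theorem plane_one (hc : c ≠ 0) (hU : Uᵀ * B * U = c • J₂ F) (hV : V = c⁻¹ • ((J₂ F)ᵀ * (Uᵀ * B))) : V * U = 1 := by
  rw [hV, Matrix.smul_mul, Matrix.mul_assoc, hU, Matrix.mul_smul, smul_smul, inv_mul_cancel₀ hc, one_smul, J₂_mul]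

/-- the isometries -/
theorem plane_iso (hc : c ≠ 0) (hB : Bᵀ = -B) (hU : Uᵀ * B * U = c • J₂ F)
    (hV : V = c⁻¹ • ((J₂ F)ᵀ * (Uᵀ * B))) {A : Matrix (Fin 2) (Fin 2) F} (hA : A.det = 1) :
    (pm U V A)ᵀ * B * pm U V A = B := by
  have h1 : Uᵀ * B = c • (J₂ F * V) := by
    rw [hV, Matrix.mul_smul, smul_smul, mul_inv_cancel₀ hc, one_smul, ← Matrix.mul_assoc, J₂_mul', Matrix.one_mul]
  have h2 : B * U = c • (Vᵀ * J₂ F) := by
    have h3 := congrArg Matrix.transpose h1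
    rw [Matrix.transpose_mul, Matrix.transpose_transpose, hB, Matrix.transpose_smul, Matrix.transpose_mul,
      J₂_transpose, Matrix.mul_neg, smul_neg, Matrix.neg_mul] at h3
    exact neg_injective h3
  have h4 := J₂_det hA
  set D := A - 1 with hD
  have hAD : A = 1 + D := by rw [hD]; abel
  have h5 : J₂ F * D + Dᵀ * J₂ F + Dᵀ * J₂ F * D = 0 := by
    rw [hAD, Matrix.transpose_add, Matrix.transpose_one] at h4
    have h6 : (1 + Dᵀ) * J₂ F * (1 + D) = J₂ F + (J₂ F * D + Dᵀ * J₂ F + Dᵀ * J₂ F * D) := by noncomm_ring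
    rw [h6] at h4
    exact add_eq_left.1 h4
  have e : (pm U V A)ᵀ * B * pm U V A = B + (B * U) * D * V + Vᵀ * Dᵀ * (Uᵀ * B) + Vᵀ * Dᵀ * (Uᵀ * B * U) * D * V := by
    unfold pm
    rw [← hD, Matrix.transpose_add, Matrix.transpose_one, Matrix.transpose_mul, Matrix.transpose_mul]
    simp only [Matrix.mul_add, Matrix.add_mul, Matrix.one_mul, Matrix.mul_one, Matrix.mul_assoc]
    abel
  have e2 : (B * U) * D * V + Vᵀ * Dᵀ * (Uᵀ * B) + Vᵀ * Dᵀ * (Uᵀ * B * U) * D * V =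
      c • (Vᵀ * (J₂ F * D + Dᵀ * J₂ F + Dᵀ * J₂ F * D) * V) := by
    rw [h2, h1]
    have h3 : c • (J₂ F * V) * U = c • J₂ F := by rw [← h1, hU]
    rw [h3]
    simp only [Matrix.mul_add, Matrix.add_mul, Matrix.smul_mul, Matrix.mul_smul, Matrix.mul_assoc, smul_add]
  rw [e, add_assoc, add_assoc, ← add_assoc (B * U * D * V), e2, h5, Matrix.mul_zero, Matrix.zero_mul, smul_zero, add_zero]

end

/-- **Class 5 of the symplectic groups.** -/
theorem spFive {Q : Type*} [Group Q] [Finite Q] {A : Subgroup Q} {Γ : Subgroup (MulAut Q)} (h : EPT A Γ)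
    {F : Type*} [Field F] [Finite F] {k : ℕ} (m : Model Q (Cfsg.spGL k F)) (hk : 2 ≤ k) (F₀ : Subfield F) (r : ℕ)
    (P : GL (Fin k ⊕ Fin k) F) (ζ : F) (hr : r.Prime) (hcard : Nat.card F = Nat.card F₀ ^ r) (hζ : ζ ≠ 0)
    (hrat : IsFormRationalStructure (Cfsg.sympForm k F) F₀ ζ P) (hA : m.hat A ≤ subfieldSubgroup F₀ P) : False := by
  let M₀ := Matrix (Fin k ⊕ Fin k) (Fin k ⊕ Fin k) F
  set B : Matrix (Fin k ⊕ Fin k) (Fin k ⊕ Fin k) F := (P : M₀)ᵀ * Matrix.J (Fin k) F * (P : M₀) with hBdef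
  have hf : ∀ s t, Cfsg.sympForm k F ((P : M₀) *ᵥ s) ((P : M₀) *ᵥ t) = s ⬝ᵥ (B *ᵥ t) := by
    intro s t
    rw [hBdef, ← Matrix.mulVec_mulVec, ← Matrix.mulVec_mulVec, Matrix.dotProduct_mulVec s, Matrix.vecMul_transpose]
    rfl
  have hP1 : ∀ u, (P : Matrix (Fin k ⊕ Fin k) (Fin k ⊕ Fin k) F) *ᵥ
      (((P⁻¹ : GL (Fin k ⊕ Fin k) F) : Matrix (Fin k ⊕ Fin k) (Fin k ⊕ Fin k) F) *ᵥ u) = u := by
    intro u
    rw [Matrix.mulVec_mulVec, ← Units.val_mul, mul_inv_cancel, Units.val_one, Matrix.one_mulVec]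
  have hBT : Bᵀ = -B := by
    rw [hBdef, Matrix.transpose_mul, Matrix.transpose_mul, Matrix.transpose_transpose, Matrix.J_transpose,
      Matrix.neg_mul, Matrix.mul_neg, Matrix.mul_assoc]
  have hself : ∀ u, Cfsg.sympForm k F u u = 0 := by
    intro u
    rw [Cfsg.sympForm, Matrix.J]
    simp [Matrix.fromBlocks_mulVec, dotProduct, Fintype.sum_sum_type, Matrix.neg_mulVec]
    rw [neg_add_eq_zero]
    exact Finset.sum_congr rfl fun i _ => mul_comm _ _
  have hent : ∀ i j, B i j = Pi.single i 1 ⬝ᵥ (B *ᵥ Pi.single j 1) := by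
    intro i j
    rw [single_one_dotProduct, Matrix.mulVec_single_one, Matrix.col_apply]
  have hBs : ∀ i, B i i = 0 := by
    intro i
    rw [hent, ← hf, hself]
  have hBr : ∀ i j, ζ * B i j ∈ F₀ := by
    intro i j
    rw [hent, ← hf]
    refine hrat _ _ ?_ ?_ <;>
    · intro a
      rw [Pi.single_apply]
      split_ifs
      · exact F₀.one_mem
      · exact F₀.zero_mem
  obtain ⟨i, j, hij⟩ : ∃ i j, B i j ≠ 0 := by
    by_contra hcon
    push Not at hcon
    have hB0 : B = 0 := by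
      ext i j
      exact hcon i j
    have h1 := hf (((P⁻¹ : GL (Fin k ⊕ Fin k) F) : M₀) *ᵥ Pi.single (Sum.inr ⟨0, by omega⟩) 1)
      (((P⁻¹ : GL (Fin k ⊕ Fin k) F) : M₀) *ᵥ Pi.single (Sum.inl ⟨0, by omega⟩) 1)
    rw [hP1, hP1, hB0, Matrix.zero_mulVec, dotProduct_zero, Cfsg.sympForm, single_one_dotProduct,
      Matrix.mulVec_single_one, Matrix.col_apply, Matrix.J, Matrix.fromBlocks_apply₂₁, Matrix.one_apply_eq] at h1
    exact one_ne_zero h1
  set U : Matrix (Fin k ⊕ Fin k) (Fin 2) F := (1 : Matrix (Fin k ⊕ Fin k) (Fin k ⊕ Fin k) F).submatrix id ![i, j]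
    with hUdef
  set V : Matrix (Fin 2) (Fin k ⊕ Fin k) F := (B i j)⁻¹ • ((J₂ F)ᵀ * (Uᵀ * B)) with hVdef
  have hUB : Uᵀ * B = B.submatrix ![i, j] id := by
    rw [hUdef, Matrix.transpose_submatrix, Matrix.transpose_one]
    ext a b
    rw [Matrix.mul_apply, Finset.sum_eq_single (![i, j] a)]
    · change (1 : Matrix (Fin k ⊕ Fin k) (Fin k ⊕ Fin k) F) (![i, j] a) (![i, j] a) * B (![i, j] a) b = B (![i, j] a) b
      rw [Matrix.one_apply_eq, one_mul]
    · intro b' _ hb'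
      rw [Matrix.submatrix_apply, id, Matrix.one_apply_ne hb'.symm, zero_mul]
    · intro h1
      exact absurd (Finset.mem_univ _) h1
  have hUBU : Uᵀ * B * U = B i j • J₂ F := by
    rw [hUB]
    have h1 : ∀ a b, (B.submatrix ![i, j] id * U) a b = B (![i, j] a) (![i, j] b) := by
      intro a b
      rw [hUdef, Matrix.mul_apply, Finset.sum_eq_single (![i, j] b)]
      · change B (![i, j] a) (![i, j] b) * (1 : Matrix (Fin k ⊕ Fin k) (Fin k ⊕ Fin k) F) (![i, j] b) (![i, j] b) =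
          B (![i, j] a) (![i, j] b)
        rw [Matrix.one_apply_eq, mul_one]
      · intro b' _ hb'
        rw [Matrix.submatrix_apply (1 : Matrix (Fin k ⊕ Fin k) (Fin k ⊕ Fin k) F), id, Matrix.one_apply_ne hb', mul_zero]
      · intro h1
        exact absurd (Finset.mem_univ _) h1
    have hji : B j i = -B i j := by
      have h2 := congrFun (congrFun hBT i) j
      rw [Matrix.transpose_apply, Matrix.neg_apply] at h2
      exact h2
    ext a b
    rw [h1, Matrix.smul_apply]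
    fin_cases a <;> fin_cases b <;> simp [J₂, hBs, hji]
  have hVU : V * U = 1 := plane_one hij hUBU hVdef
  have hU0 : ∀ a b, U a b ∈ F₀ := by
    intro a b
    rw [hUdef, Matrix.submatrix_apply, Matrix.one_apply]
    split_ifs
    · exact F₀.one_mem
    · exact F₀.zero_mem
  have hq : ∀ a b, (B i j)⁻¹ * B a b ∈ F₀ := by
    intro a b
    have h1 := F₀.mul_mem (F₀.inv_mem (hBr i j)) (hBr a b)
    have h2 : (ζ * B i j)⁻¹ * (ζ * B a b) = (B i j)⁻¹ * B a b := by
      rw [_root_.mul_inv]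
      field_simp
    rwa [h2] at h1
  have hV0 : ∀ a b, V a b ∈ F₀ := by
    intro a b
    rw [hVdef, hUB, Matrix.smul_apply, Matrix.mul_apply, Fin.sum_univ_two, smul_eq_mul, mul_add]
    simp only [Matrix.submatrix_apply, id]
    have h1 : ∀ s t, (J₂ F)ᵀ s t ∈ F₀ := by
      intro s t
      fin_cases s <;> fin_cases t <;> simp [J₂, F₀.zero_mem, F₀.one_mem]
    refine F₀.add_mem ?_ ?_
    · rw [mul_left_comm]
      exact F₀.mul_mem (h1 _ _) (hq _ _)
    · rw [mul_left_comm]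
      exact F₀.mul_mem (h1 _ _) (hq _ _)
  have hcι : 2 < Fintype.card (Fin k ⊕ Fin k) := by
    rw [Fintype.card_sum, Fintype.card_fin]
    omega
  refine kill_plane h m hA hr hcard hcι hVU hU0 hV0 fun a ha => ?_
  have hiso := plane_iso hij hBT hUBU hVdef ha
  have hiso' : ∀ s t, (((rho hVU a : GL (Fin k ⊕ Fin k) F) : M₀) *ᵥ s) ⬝ᵥ
      (B *ᵥ (((rho hVU a : GL (Fin k ⊕ Fin k) F) : M₀) *ᵥ t)) = s ⬝ᵥ (B *ᵥ t) := by
    intro s t
    rw [rho_val]
    conv_rhs => rw [← hiso, ← Matrix.mulVec_mulVec, ← Matrix.mulVec_mulVec, Matrix.dotProduct_mulVec s,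
      Matrix.vecMul_transpose]
  change ∀ u v, Cfsg.sympForm k F (((P * rho hVU a * P⁻¹ : GL (Fin k ⊕ Fin k) F) : M₀) *ᵥ u)
    (((P * rho hVU a * P⁻¹ : GL (Fin k ⊕ Fin k) F) : M₀) *ᵥ v) = Cfsg.sympForm k F u v
  intro u v
  rw [Units.val_mul, Units.val_mul, ← Matrix.mulVec_mulVec, ← Matrix.mulVec_mulVec, ← Matrix.mulVec_mulVec,
    ← Matrix.mulVec_mulVec, hf, hiso', ← hf, hP1, hP1]

/-- the row in the form of `Cfsg.Agent.H111.EP.SpC5` -/
theorem spC5 : ∀ {Q : Type} [Group Q] [Finite Q], IsSimpleGroup Q → ∀ {A : Subgroup Q}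
    {Γ : Subgroup (MulAut Q)}, EPT A Γ → ∀ {F : Type} [Field F] [Fintype F] {k : ℕ}
    (m : Model Q (Cfsg.spGL k F)), 2 ≤ k → 3 ≤ Fintype.card F → ∀ (F₀ : Subfield F) (r : ℕ)
    (P : GL (Fin k ⊕ Fin k) F) (ζ : F), r.Prime → Fintype.card F = Nat.card F₀ ^ r → ζ ≠ 0 →
    IsFormRationalStructure (Cfsg.sympForm k F) F₀ ζ P → m.hat A ≤ subfieldSubgroup F₀ P → False := by
  intro Q _ _ _ A Γ h F _ _ k m hk _ F₀ r P ζ hr hcard hζ hrat hA
  exact spFive h m hk F₀ r P ζ hr (by rw [Nat.card_eq_fintype_card]; exact hcard) hζ hrat hA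

end Cfsg.Agent.H463.EP
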